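import Cfsg.Agent.H695.XP.Mat
import Cfsg.Agent.H845.KB.AbPsl
import Cfsg.Agent.H443.XC.Defs

/-!
# S4791, `PSL_n(q)`, `p ∤ q - 1`: `CycOut` (helper695)
-/

set_option autoImplicit false
set_option linter.unusedSectionVars false

namespace Cfsg.Agent.H695.XP

open Matrix Cfsg Subgroup
open Cfsg.Agent.H199.PslAut
open Cfsg.Agent.ClassicalGeometry.AutPSL.Root
open Cfsg.Agent.ClassicalGeometry.AutPSL.Auto

universe u v w

section abstr

variable {X : Type u} [Group X] {S : Type v} [Group S] [MulAction X S] {T : Type w} [CommGroup T] [Finite T]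

theorem pow_val_mul (t : T) (a b : ZMod (Nat.card T)) : t ^ (a * b).val = (t ^ a.val) ^ b.val := by
  rw [ZMod.val_mul, pow_mod_natCard, pow_mul]

theorem pow_val_one (t : T) : t ^ (1 : ZMod (Nat.card T)).val = t := by
  rw [ZMod.val_one_eq_one_mod, pow_mod_natCard, pow_one]

/-- the pairs `(α, u)` such that `α` acts on the image of `T` as the power map `u` up to `D` -/
def pairs (D : Subgroup X) (hD : D.Normal) (x : T → S) : Subgroup (X × (ZMod (Nat.card T))ˣ) where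
  carrier := {y | ∃ δ ∈ D, ∀ t, y.1 • x t = δ • x (t ^ (y.2 : ZMod (Nat.card T)).val)}
  one_mem' := ⟨1, D.one_mem, fun t => by
    change (1 : X) • x t = (1 : X) • x (t ^ (1 : ZMod (Nat.card T)).val)
    rw [pow_val_one]⟩
  mul_mem' := by
    rintro ⟨α, a⟩ ⟨β, b⟩ ⟨δ, hδ, h1⟩ ⟨ε, hε, h2⟩
    refine ⟨(α * ε * α⁻¹) * δ, D.mul_mem (hD.conj_mem _ hε _) hδ, fun t => ?_⟩
    change (α * β) • x t = (α * ε * α⁻¹ * δ) • x (t ^ ((a * b : (ZMod (Nat.card T))ˣ) : ZMod (Nat.card T)).val)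
    have h3 := h2 t
    change β • x t = ε • x (t ^ (b : ZMod (Nat.card T)).val) at h3
    have h4 := h1 (t ^ (b : ZMod (Nat.card T)).val)
    change α • x (t ^ (b : ZMod (Nat.card T)).val) = δ • x ((t ^ (b : ZMod (Nat.card T)).val) ^ (a : ZMod (Nat.card T)).val) at h4
    rw [Units.val_mul, mul_comm (a : ZMod (Nat.card T)), pow_val_mul, mul_smul, h3]
    rw [mul_smul (α * ε * α⁻¹), ← h4, ← mul_smul, ← mul_smul]
    congr 1
    group
  inv_mem' := by
    rintro ⟨α, a⟩ ⟨δ, hδ, h1⟩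
    refine ⟨α⁻¹ * δ⁻¹ * α, ?_, fun t => ?_⟩
    · have h2 := hD.conj_mem _ (D.inv_mem hδ) α⁻¹
      rwa [inv_inv] at h2
    · change α⁻¹ • x t = (α⁻¹ * δ⁻¹ * α) • x (t ^ ((a⁻¹ : (ZMod (Nat.card T))ˣ) : ZMod (Nat.card T)).val)
      have h2 := h1 (t ^ ((a⁻¹ : (ZMod (Nat.card T))ˣ) : ZMod (Nat.card T)).val)
      change α • x _ = δ • x ((t ^ ((a⁻¹ : (ZMod (Nat.card T))ˣ) : ZMod (Nat.card T)).val) ^ (a : ZMod (Nat.card T)).val) at h2
      rw [← pow_val_mul, ← Units.val_mul, inv_mul_cancel, Units.val_one, pow_val_one] at h2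
      rw [mul_smul, h2, ← mul_smul, inv_mul_cancel_right]

theorem mem_pairs {D : Subgroup X} {hD : D.Normal} {x : T → S} {α : X} {a : (ZMod (Nat.card T))ˣ} :
    (α, a) ∈ pairs D hD x ↔ ∃ δ ∈ D, ∀ t, α • x t = δ • x (t ^ (a : ZMod (Nat.card T)).val) := Iff.rfl

/-- a group of automorphisms acting by power maps up to `D` is cyclic up to `D` -/
theorem exists_gen {p k : ℕ} (hp : p.Prime) (hp2 : p ≠ 2) (hT : Nat.card T = p ^ k) (D : Subgroup X) (hD : D.Normal)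
    (x : T → S) (A : Subgroup X) (hA : ∀ α ∈ A, ∃ a : (ZMod (Nat.card T))ˣ, (α, a) ∈ pairs D hD x) :
    ∃ γ ∈ A, ∀ α ∈ A, ∃ k : ℤ, ∃ δ ∈ D, ∀ t, ((γ ^ k)⁻¹ * α) • x t = δ • x t := by
  have hcyc : IsCyclic (ZMod (Nat.card T))ˣ := by
    rw [hT]
    exact ZMod.isCyclic_units_of_prime_pow p hp hp2 k
  let H : Subgroup (X × (ZMod (Nat.card T))ˣ) := pairs D hD x ⊓ A.comap (MonoidHom.fst X (ZMod (Nat.card T))ˣ)
  have hc : IsCyclic (H.map (MonoidHom.snd X (ZMod (Nat.card T))ˣ)) := inferInstance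
  obtain ⟨⟨g, hg⟩, hgen⟩ := hc.exists_generator
  obtain ⟨⟨γ, u⟩, ⟨hγ1, hγ2⟩, hγ⟩ := Subgroup.mem_map.1 hg
  change u = g at hγ
  subst hγ
  refine ⟨γ, hγ2, fun α hα => ?_⟩
  obtain ⟨a, ha⟩ := hA α hα
  obtain ⟨k, hk⟩ := Subgroup.mem_zpowers_iff.1 (hgen ⟨a, Subgroup.mem_map.2 ⟨(α, a), ⟨ha, hα⟩, rfl⟩⟩)
  have hk' : u ^ k = a := congrArg Subtype.val hk
  have h1 : ((γ, u) ^ k)⁻¹ * (α, a) ∈ pairs D hD x := Subgroup.mul_mem _ (Subgroup.inv_mem _ (Subgroup.zpow_mem _ hγ1 k)) ha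
  have h2 : ((γ, u) ^ k)⁻¹ * (α, a) = ((γ ^ k)⁻¹ * α, 1) := by
    apply Prod.ext
    · rfl
    · change (u ^ k)⁻¹ * a = 1
      rw [hk', inv_mul_cancel]
  rw [h2] at h1
  obtain ⟨δ, hδ, h3⟩ := h1
  refine ⟨k, δ, hδ, fun t => ?_⟩
  have h4 := h3 t
  change ((γ ^ k)⁻¹ * α) • x t = δ • x (t ^ (1 : ZMod (Nat.card T)).val) at h4
  rw [h4, pow_val_one]

end abstr

section psl

variable {F : Type u} [Field F] [Fintype F] {n : ℕ}

local notation "PSL" => Matrix.ProjectiveSpecialLinearGroup (Fin n) F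

/-- `p`-elements of the centre -/
theorem eq_one_of_pr {p : ℕ} [hp : Fact p.Prime] (hq : ¬ p ∣ Fintype.card F - 1) {Q : Subgroup (Matrix.SpecialLinearGroup (Fin n) F)}
    (hQ : IsPGroup p Q) {t : Matrix.SpecialLinearGroup (Fin n) F} (ht : t ∈ Q) (h1 : pr t = 1) : t = 1 := by
  rw [pr_eq_one_iff] at h1
  obtain ⟨c, hc, hct⟩ := Matrix.SpecialLinearGroup.mem_center_iff.1 h1
  obtain ⟨k, hk⟩ := hQ ⟨t, ht⟩
  have hk' : t ^ p ^ k = 1 := congrArg Subtype.val hk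
  by_cases h0 : n = 0
  · subst h0
    apply Subtype.ext
    ext i
    exact i.elim0
  have hc0 : c ≠ 0 := by
    rintro rfl
    rw [zero_pow (by rwa [Fintype.card_fin])] at hc
    exact zero_ne_one hc
  have h2 : t ^ (Fintype.card F - 1) = 1 := by
    apply Subtype.ext
    rw [Matrix.SpecialLinearGroup.coe_pow, ← hct, ← map_pow, FiniteField.pow_card_sub_one_eq_one c hc0, map_one]
    rfl
  have h3 : orderOf t ∣ p ^ k := orderOf_dvd_of_pow_eq_one hk'
  have h4 : orderOf t ∣ Fintype.card F - 1 := orderOf_dvd_of_pow_eq_one h2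
  have h5 : Nat.Coprime (p ^ k) (Fintype.card F - 1) := Nat.Coprime.pow_left _ ((Nat.Prime.coprime_iff_not_dvd hp.out).2 hq)
  exact orderOf_eq_one_iff.1 (Nat.eq_one_of_dvd_coprimes h5 h3 h4)

/-- the powers `q - 1` of inner-diagonal automorphisms are inner -/
theorem Psi_pow_inner (g : GL (Fin n) F) :
    Psi n F g ^ (Fintype.card F - 1) ∈ (MulAut.conj : PSL →* MulAut PSL).range := by
  have h1 : Matrix.GeneralLinearGroup.det (g ^ (Fintype.card F - 1)) = 1 := by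
    rw [map_pow]
    apply Units.ext
    rw [Units.val_pow_eq_pow_val, Units.val_one]
    exact FiniteField.pow_card_sub_one_eq_one _ (Units.ne_zero _)
  let s : Matrix.SpecialLinearGroup (Fin n) F :=
    ⟨((g ^ (Fintype.card F - 1) : GL (Fin n) F) : Matrix (Fin n) (Fin n) F), congrArg Units.val h1⟩
  have h2 : (s : GL (Fin n) F) = g ^ (Fintype.card F - 1) := Units.ext rfl
  rw [← map_pow, ← h2, Psi_coe]
  exact ⟨pr s, rfl⟩

theorem pow_neg_one {T : Type w} [CommGroup T] [Finite T] (t : T) : t ^ (-1 : ZMod (Nat.card T)).val = t⁻¹ := by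
  have : NeZero (Nat.card T) := ⟨Nat.card_pos.ne'⟩
  have h1 : (((-1 : ZMod (Nat.card T)).val + 1 : ℕ) : ZMod (Nat.card T)) = 0 := by
    rw [Nat.cast_add, ZMod.natCast_zmod_val, Nat.cast_one, neg_add_cancel]
  rw [ZMod.natCast_eq_zero_iff] at h1
  obtain ⟨c, hc⟩ := h1
  rw [eq_inv_iff_mul_eq_one, ← pow_succ, hc, pow_mul, pow_card_eq_one', one_pow]

theorem cycOut_psl {p : ℕ} [hp : Fact p.Prime] (hp2 : p ≠ 2) (hn : 2 ≤ n) (hpF : (p : F) ≠ 0)
    (hq : ¬ p ∣ Fintype.card F - 1) (hab : H443.XC.AbSyl p PSL) : H443.XC.CycOut p PSL := by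
  intro P A _ _
  obtain ⟨Q, hQ, hQP⟩ := H845.KB.exists_lift_sylow pr pr_surjective P
  have hQP' : ∀ t ∈ Q, pr t ∈ (P : Subgroup PSL) := by
    intro t ht
    have h1 : IsPGroup p (Q.map pr) := hQ.map pr
    have h2 : (P : Subgroup PSL) ≤ Q.map pr := by
      intro x hx
      obtain ⟨t, ht, rfl⟩ := hQP x hx
      exact ⟨t, ht, rfl⟩
    rw [← P.3 h1 h2]
    exact ⟨t, ht, rfl⟩
  have hcomm : ∀ s t : Q, s * t = t * s := by
    intro s t
    have h1 := hab P _ (hQP' s s.2) _ (hQP' t t.2)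
    apply Subtype.ext
    rw [← mul_inv_eq_one]
    refine eq_one_of_pr hq hQ (Q.mul_mem (s * t).2 (Q.inv_mem (t * s).2)) ?_
    change pr ((s : Matrix.SpecialLinearGroup (Fin n) F) * (t : Matrix.SpecialLinearGroup (Fin n) F) *
      ((t : Matrix.SpecialLinearGroup (Fin n) F) * (s : Matrix.SpecialLinearGroup (Fin n) F))⁻¹) = 1
    rw [map_mul, map_inv, map_mul, map_mul, h1, mul_inv_cancel]
  let iQ : CommGroup Q := { (inferInstance : Group Q) with mul_comm := hcomm }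
  obtain ⟨k, hk⟩ := (IsPGroup.iff_card).1 hQ
  have hcard : (Nat.card Q : F) ≠ 0 := by
    rw [hk, Nat.cast_pow]
    exact pow_ne_zero _ hpF
  have hD := inndiag_normal (F := F) hn
  obtain ⟨r, hr0, hrp, -⟩ : ∃ r : ℕ, CharP F r ∧ r.Prime ∧ True := by
    obtain ⟨r, hr⟩ := CharP.exists F
    exact ⟨r, hr, CharP.char_is_prime F r, trivial⟩
  have hr : Fact r.Prime := ⟨hrp⟩
  have hrN : Nat.Coprime r (Nat.card Q) := by
    rw [hk]
    refine Nat.Coprime.pow_right _ ((Nat.coprime_primes hrp hp.out).2 ?_)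
    rintro rfl
    exact hpF (CharP.cast_eq_zero F r)
  let x : Q → PSL := fun t => pr (t : Matrix.SpecialLinearGroup (Fin n) F)
  have hPsi : ∀ g : GL (Fin n) F, (Psi n F g, 1) ∈ pairs (inndiagPSL n F) hD x := fun g =>
    ⟨Psi n F g, Psi_mem g, fun t => by
      change Psi n F g • x t = Psi n F g • x (t ^ (1 : ZMod (Nat.card Q)).val)
      rw [pow_val_one]⟩
  have hphi : ∀ σ : F ≃+* F, ∃ a, (phi n F σ, a) ∈ pairs (inndiagPSL n F) hD x := by
    intro σ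
    obtain ⟨g, j, hg⟩ := fld_pow (r := r) hcard Q.subtype σ
    refine ⟨ZMod.unitOfCoprime (r ^ j) (Nat.Coprime.pow_left j hrN), Psi n F g⁻¹, Psi_mem _, fun t => ?_⟩
    change phi n F σ (pr (t : Matrix.SpecialLinearGroup (Fin n) F)) = Psi n F g⁻¹ (x (t ^ (((r ^ j : ℕ) : ZMod (Nat.card Q))).val))
    rw [ZMod.val_natCast, pow_mod_natCard, phi_pr]
    have h1 := congrArg pr (hg t)
    change pr (cj g (fld σ (t : Matrix.SpecialLinearGroup (Fin n) F))) = x (t ^ r ^ j) at h1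
    rw [← h1, Psi_pr, ← MulAut.mul_apply, ← map_mul, inv_mul_cancel, map_one, MulAut.one_apply]
  have hiot : (iot n F, -1) ∈ pairs (inndiagPSL n F) hD x := by
    obtain ⟨g, hg⟩ := itr_inv hcard Q.subtype
    refine ⟨Psi n F g⁻¹, Psi_mem _, fun t => ?_⟩
    change iot n F (pr (t : Matrix.SpecialLinearGroup (Fin n) F)) = Psi n F g⁻¹ (x (t ^ (((-1 : (ZMod (Nat.card Q))ˣ) : ZMod (Nat.card Q))).val))
    rw [Units.val_neg, Units.val_one, pow_neg_one, iot_pr]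
    have h1 := congrArg pr (hg t)
    change pr (cj g (itr (t : Matrix.SpecialLinearGroup (Fin n) F))) = x t⁻¹ at h1
    rw [← h1, Psi_pr, ← MulAut.mul_apply, ← map_mul, inv_mul_cancel, map_one, MulAut.one_apply]
  obtain ⟨γ, hγ, hgen⟩ := exists_gen hp.out hp2 hk (inndiagPSL n F) hD x A (by
    intro α _
    rcases H199.PslAut.exists_form hn α with ⟨g, σ, rfl⟩ | ⟨-, g, σ, rfl⟩
    · obtain ⟨a, ha⟩ := hphi σ
      exact ⟨1 * a, Subgroup.mul_mem _ (hPsi g) ha⟩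
    · obtain ⟨a, ha⟩ := hphi σ
      exact ⟨1 * a * -1, Subgroup.mul_mem _ (Subgroup.mul_mem _ (hPsi g) ha) hiot⟩)
  refine ⟨γ, hγ, fun α hα => ?_⟩
  obtain ⟨k, δ, hδ, h1⟩ := hgen α hα
  obtain ⟨g, rfl⟩ := mem_inndiag.1 hδ
  obtain ⟨s, hs⟩ := H845.KB.inner_on_sylow hp2 hpF hn P (Psi n F g) hδ (Fintype.card F - 1) hq (Psi_pow_inner g)
  have hfin : Finite PSL := Finite.of_surjective pr pr_surjective
  have hfin' : Finite (MulAut PSL) := inferInstance
  obtain ⟨m, hm⟩ : ∃ m : ℕ, γ ^ k = γ ^ m := by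
    obtain ⟨m, hm⟩ := (isOfFinOrder_of_finite γ).mem_powers_iff_mem_zpowers.2 ⟨k, rfl⟩
    exact ⟨m, hm.symm⟩
  refine ⟨m, (γ ^ m) s, fun y hy => ?_⟩
  obtain ⟨t, ht, rfl⟩ := hQP y hy
  have h2 := h1 ⟨t, ht⟩
  change ((γ ^ k)⁻¹ * α) (pr t) = Psi n F g (pr t) at h2
  rw [hs _ hy, hm, MulAut.mul_apply] at h2
  have h3 : α (pr t) = (γ ^ m) ((γ ^ m)⁻¹ (α (pr t))) := by
    rw [MulAut.apply_inv_self]
  rw [h3, h2, map_mul, map_mul, map_inv]

end psl

section congr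

theorem cycOut_congr {p : ℕ} [Fact p.Prime] {S : Type u} {S' : Type v} [Group S] [Finite S] [Group S'] (e : S ≃* S')
    (h : H443.XC.CycOut p S') : H443.XC.CycOut p S := by
  intro P A hA hAp
  have hfin : Finite S' := Finite.of_equiv S e.toEquiv
  obtain ⟨P', hP'⟩ : ∃ P' : Sylow p S', (P' : Subgroup S') = (P : Subgroup S).map (e : S →* S') :=
    ⟨P.mapSurjective (f := (e : S →* S')) e.surjective, rfl⟩
  let c : MulAut S ≃* MulAut S' := MulAut.congr e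
  have hc : ∀ (γ : MulAut S) (x : S), c γ (e x) = e (γ x) := by
    intro γ x
    change e (γ (e.symm (e x))) = _
    rw [e.symm_apply_apply]
  have hrange : (MulAut.conj : S' →* MulAut S').range = (MulAut.conj : S →* MulAut S).range.map (c : MulAut S →* MulAut S') := by
    ext γ
    constructor
    · rintro ⟨s', rfl⟩
      obtain ⟨s, rfl⟩ := e.surjective s'
      refine ⟨MulAut.conj s, ⟨s, rfl⟩, ?_⟩
      apply MulEquiv.ext
      intro y
      obtain ⟨x, rfl⟩ := e.surjective y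
      change c (MulAut.conj s) (e x) = _
      rw [hc, MulAut.conj_apply, MulAut.conj_apply, map_mul, map_mul, map_inv]
    · rintro ⟨_, ⟨s, rfl⟩, rfl⟩
      refine ⟨e s, ?_⟩
      apply MulEquiv.ext
      intro y
      obtain ⟨x, rfl⟩ := e.surjective y
      change _ = c (MulAut.conj s) (e x)
      rw [hc, MulAut.conj_apply, MulAut.conj_apply, map_mul, map_mul, map_inv]
  obtain ⟨γ', ⟨γ, hγ, rfl⟩, hgen⟩ := h P' (A.map (c : MulAut S →* MulAut S')) (by rw [hrange]; exact Subgroup.map_mono hA)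
    (by
      rw [hrange, Subgroup.relIndex_map_map_of_injective _ _ c.injective]
      exact hAp)
  refine ⟨γ, hγ, fun β hβ => ?_⟩
  obtain ⟨k, s', hs'⟩ := hgen (c β) ⟨β, hβ, rfl⟩
  refine ⟨k, e.symm s', fun x hx => ?_⟩
  have h1 := hs' (e x) (by rw [hP']; exact ⟨x, hx, rfl⟩)
  have h2 : (((c : MulAut S →* MulAut S') γ) ^ k) = c (γ ^ k) := (map_pow c γ k).symm
  rw [h2, hc, hc] at h1
  apply e.injective
  rw [h1, map_mul, map_mul, map_inv, e.apply_symm_apply]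

theorem abSyl_congr {p : ℕ} [Fact p.Prime] {S : Type u} {S' : Type v} [Group S] [Finite S] [Group S'] (e : S ≃* S')
    (h : H443.XC.AbSyl p S) : H443.XC.AbSyl p S' := by
  have hfin : Finite S' := Finite.of_equiv S e.toEquiv
  intro P' x' hx' y' hy'
  have hP : ((P'.mapSurjective (f := (e.symm : S' →* S)) e.symm.surjective : Sylow p S) : Subgroup S) =
    (P' : Subgroup S').map (e.symm : S' →* S) := rfl
  have h1 := h (P'.mapSurjective (f := (e.symm : S' →* S)) e.symm.surjective) (e.symm x') (by rw [hP]; exact ⟨x', hx', rfl⟩)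
    (e.symm y') (by rw [hP]; exact ⟨y', hy', rfl⟩)
  apply e.symm.injective
  rw [map_mul, map_mul, h1]

end congr

/-- **`CycOut` for `PSL_n(q)`**, `P` abelian, `p ∤ q - 1` -/
theorem cyc_psl {p : ℕ} [hp : Fact p.Prime] {S : Type u} [Group S] (hp2 : p ≠ 2) {F : Type v} [Field F] [Fintype F] {n : ℕ}
    (hn : 2 ≤ n) (hpF : (p : F) ≠ 0) (hq : ¬ p ∣ Fintype.card F - 1)
    (e : S ≃* Matrix.ProjectiveSpecialLinearGroup (Fin n) F) (hab : H443.XC.AbSyl p S) : H443.XC.CycOut p S := by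
  have hfin : Finite (Matrix.ProjectiveSpecialLinearGroup (Fin n) F) := Finite.of_surjective pr pr_surjective
  have hfinS : Finite S := Finite.of_equiv _ e.symm.toEquiv
  exact cycOut_congr e (cycOut_psl hp2 hn hpF hq (abSyl_congr e hab))

end Cfsg.Agent.H695.XP
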